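import Cfsg.Agent.H507.GmnPSL
import Cfsg.Agent.H952.On.Table

/-!
# The row `PSL_n(q)`, `p` odd dividing `q - 1`, of S3855 (helper966)

`psl_a` : an involution of `PSL_n(q)` normalises a Sylow `p`-subgroup of the automorphism group. The group `Γ` is the
stabiliser of the standard frame in the semilinear group, `χ` is the sign of the permutation of the lines.
-/

set_option autoImplicit false

namespace Cfsg.Agent.H966.OnPslA

open Matrix Subgroup Cfsg.Agent.H467.OddNorm
open Cfsg.Agent.H507.Gmn Cfsg.Agent.H507.GmnMono Cfsg.Agent.H507.GmnPSL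
open Cfsg.Agent.ClassicalGeometry.AutPSL.Root Cfsg.Agent.ClassicalGeometry.AutPSL.Auto
  Cfsg.Agent.ClassicalGeometry.AutPSL.Main Cfsg.Agent.Schreier.ClassPSL

variable {F : Type*} [Field F] [Fintype F] {n p : ℕ} [hp : Fact p.Prime]

/-- The image of the semilinear group in the automorphism group has index prime to `p`. -/
theorem index_range (hn : 2 ≤ n) (hp2 : p ≠ 2) : ¬ p ∣ (Phi (Fin n) F).range.index := by
  classical
  obtain ⟨P⟩ : Nonempty (Sylow p (MulAut (Matrix.ProjectiveSpecialLinearGroup (Fin n) F))) := inferInstance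
  have hle : (P : Subgroup _) ≤ (Phi (Fin n) F).range := by
    intro x hx
    obtain ⟨k, hk⟩ := P.isPGroup' ⟨x, hx⟩
    have hk' : x ^ p ^ k = 1 := congrArg Subtype.val hk
    obtain ⟨B, σ, h⟩ := Cfsg.Agent.BpLin.exists_type hn ((hp.out.odd_of_ne_two hp2).pow) hk'
    exact ⟨⟨B, σ⟩, by rw [Phi_apply, h]⟩
  intro h
  exact P.not_dvd_index (h.trans (Subgroup.index_dvd_of_le hle))

/-- The image of the stabiliser of the frame has index prime to `p`. -/
theorem index_frame (hn : 2 ≤ n) (hp2 : p ≠ 2) (hpq : p ∣ Fintype.card F - 1) :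
    ¬ p ∣ ((Phi (Fin n) F).comp (Hm (Fin n) F).subtype).range.index := by
  have h1 : ((Phi (Fin n) F).comp (Hm (Fin n) F).subtype).range = (Hm (Fin n) F).map (Phi (Fin n) F) := by
    rw [MonoidHom.range_comp, Subgroup.range_subtype]
  rw [h1, ← Subgroup.relIndex_mul_index (Subgroup.map_le_range _ _), hp.out.dvd_mul]
  rintro (h | h)
  · have h2 : ((Hm (Fin n) F).map (Phi (Fin n) F)).relIndex (Phi (Fin n) F).range ∣ (Hm (Fin n) F).index := by
      have h4 : ((Hm (Fin n) F).map (Phi (Fin n) F)).subgroupOf (Phi (Fin n) F).range =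
          (Hm (Fin n) F).map (Phi (Fin n) F).rangeRestrict := by
        ext y
        rw [mem_subgroupOf, mem_map, mem_map]
        constructor
        · rintro ⟨x, hx, hxy⟩
          exact ⟨x, hx, Subtype.ext hxy⟩
        · rintro ⟨x, hx, hxy⟩
          exact ⟨x, hx, congrArg Subtype.val hxy⟩
      rw [Subgroup.relIndex, h4]
      exact Subgroup.index_map_dvd _ (MonoidHom.rangeRestrict_surjective _)
    have h3 := h.trans h2
    rw [index_Hm] at h3
    exact not_dvd_index hp2 hpq h3
  · exact index_range hn hp2 h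

/-- **`PSL_n(q)`, `p` odd dividing `q - 1`.** -/
theorem ev_psl_a (hn : 2 ≤ n) (hp2 : p ≠ 2) (hpq : p ∣ Fintype.card F - 1)
    (hc : Subgroup.center (Matrix.ProjectiveSpecialLinearGroup (Fin n) F) = ⊥) :
    Ev p (Matrix.ProjectiveSpecialLinearGroup (Fin n) F) := by
  classical
  have hnt : Nontrivial (Fin n) := Fin.nontrivial_iff_two_le.2 hn
  obtain ⟨i, j, hij⟩ := exists_pair_ne (Fin n)
  let d : Fin n → Fˣ := Pi.mulSingle i (-1)
  have hdet : (M (Equiv.swap i j) (fun k => (d k : F))).det = 1 := by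
    rw [det_M, Equiv.Perm.sign_swap hij]
    have h1 : ∏ k, (d k : F) = -1 := by
      rw [← Units.coe_prod]
      change ((∏ k, (Pi.mulSingle i (-1) : Fin n → Fˣ) k : Fˣ) : F) = -1
      rw [Finset.prod_pi_mulSingle']
      simp
    rw [h1]
    simp
  let s : Matrix.SpecialLinearGroup (Fin n) F := ⟨_, hdet⟩
  have hs : Matrix.SpecialLinearGroup.toGL s = mono (Equiv.swap i j) d := by
    apply Units.ext
    rfl
  have hmem : (⟨Matrix.SpecialLinearGroup.toGL s, 1⟩ : GamL (Fin n) F) ∈ Hm (Fin n) F := ⟨_, _, hs⟩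
  refine Ev.of_range hp2 hc ((Phi (Fin n) F).comp (Hm (Fin n) F).subtype) (index_frame hn hp2 hpq)
    (Equiv.Perm.sign.comp (perH (Fin n) F)) ?_ (γ := ⟨_, hmem⟩) (s := pr s) ?_ ?_
  · intro w hw
    have hw' : Phi (Fin n) F (w : GamL (Fin n) F) = 1 := hw
    have hσ : (w : GamL (Fin n) F).right = 1 := right_eq_one (by rw [hw']; exact one_mem _)
    rw [Phi_apply, hσ] at hw'
    have h2 : lift (cj (w : GamL (Fin n) F).left * fld (ι := Fin n) (1 : F ≃+* F)) = lift (fld (ι := Fin n) (1 : F ≃+* F)) := by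
      rw [hw', map_one, map_one]
    obtain ⟨r, hr⟩ := (injective_aux h2).1
    obtain ⟨d', hd'⟩ := perH_spec w
    show Equiv.Perm.sign (perH (Fin n) F w) = 1
    have h3 : perH (Fin n) F w = 1 := by
      apply Equiv.ext
      intro k
      by_contra hne
      have h4 : ((w : GamL (Fin n) F).left : Matrix (Fin n) (Fin n) F) (perH (Fin n) F w k) k = 0 := by
        rw [← hr, scalar_apply]
        exact Matrix.diagonal_apply_ne _ hne
      rw [hd', coe_mono, M_apply, if_pos rfl] at h4
      exact (d' k).ne_zero h4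
    rw [h3, map_one]
  · exact Phi_inner s
  · show Equiv.Perm.sign (perH (Fin n) F ⟨_, hmem⟩) ≠ 1
    rw [perH_eq (π := Equiv.swap i j) (d := d) hs, Equiv.Perm.sign_swap hij]
    decide

/-- **ON-PSL-a.** -/
theorem psl_a {F : Type} [Field F] [Fintype F] {n p : ℕ} [Fact p.Prime] (hn : 2 ≤ n) (hp2 : p ≠ 2)
    (hpq : p ∣ Fintype.card F - 1)
    (hc : Subgroup.center (Matrix.ProjectiveSpecialLinearGroup (Fin n) F) = ⊥) :
    Row p (Matrix.ProjectiveSpecialLinearGroup (Fin n) F) :=
  Row.ev (ev_psl_a hn hp2 hpq hc)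

end Cfsg.Agent.H966.OnPslA
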